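import Cfsg.Agent.H23.AutPSU.Main

/-!
Field automorphisms of `PSU n`: conjugacy in their coset, centraliser and splitting of classes.
-/

set_option autoImplicit false

namespace Cfsg.Agent.H23.AutPSU

open Matrix Cfsg.Agent.H3 Cfsg.Agent.H23.Descent

variable {F : Type*} [Field F] [Fintype F] {n q : ℕ}

/-- An identification of a field with the fixed field of `σ`, carrying `q₀` to `q`. -/
structure FixedEmb (σ : F ≃+* F) (F₀ : Type*) [Field F₀] (q q₀ : ℕ) where
  /-- the embedding -/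
  ι : F₀ →+* F
  mem : ∀ y : F, σ y = y ↔ ∃ x, ι x = y
  pow_eq : ∀ x, ι x ^ q = ι (x ^ q₀)

theorem pow_odd_eq {M : Type*} [Monoid M] {x : M} {Q r : ℕ} (hx : x ^ (Q * Q) = x) (hr : Odd r) :
    x ^ Q ^ r = x ^ Q := by
  obtain ⟨j, rfl⟩ := hr
  induction j with
  | zero => simp
  | succ j ih =>
    rw [show Q ^ (2 * (j + 1) + 1) = (Q * Q) * Q ^ (2 * j + 1) by ring, pow_mul, hx, ih]

/-- The fixed field of an automorphism of odd order. -/
theorem exists_fixedEmb {p f : ℕ} [Fact p.Prime] (hq : q = p ^ f) (hF : Fintype.card F = q ^ 2)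
    (σ : F ≃+* F) (hσ : Odd (orderOf σ)) :
    orderOf σ ∣ f ∧ ∀ (F₀ : Type*) [Field F₀] [Fintype F₀],
      Fintype.card F₀ = p ^ (2 * (f / orderOf σ)) →
        Nonempty (FixedEmb σ F₀ q (p ^ (f / orderOf σ))) := by
  classical
  set r := orderOf σ with hr
  obtain ⟨K, hK, hcard⟩ := exists_fixedField σ
  rw [Nat.card_eq_fintype_card, hF, card_eq_pow hq, ← hr] at hcard
  have hr0 : r ≠ 0 := fun h => by simp [h] at hσ
  obtain ⟨m, -, hm⟩ := (Nat.dvd_prime_pow (Fact.out : p.Prime)).1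
    ⟨_, hcard.trans (mul_pow_sub_one hr0 (Nat.card K)).symm⟩
  rw [hm, ← pow_mul] at hcard
  have hmr : m * r = 2 * f := (Nat.pow_right_injective (Fact.out : p.Prime).two_le hcard).symm
  obtain ⟨e, rfl⟩ : 2 ∣ m := (Nat.Coprime.dvd_of_dvd_mul_right
    (Nat.coprime_two_left.2 hσ) ⟨f, hmr⟩)
  have hef : f = r * e := by
    have h : 2 * (e * r) = 2 * f := by rw [← hmr, mul_assoc]
    rw [mul_comm]; omega
  refine ⟨⟨e, hef⟩, fun F₀ _ _ h₀ => ?_⟩
  have hfr : f / r = e := by rw [hef, Nat.mul_div_cancel_left _ (Nat.pos_of_ne_zero hr0)]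
  rw [hfr] at h₀ ⊢
  have hcK : Fintype.card F₀ = Fintype.card K := by
    rw [h₀, ← hm, Nat.card_eq_fintype_card]
  let ε : F₀ ≃+* K := FiniteField.ringEquivOfCardEq hcK
  refine ⟨⟨K.subtype.comp ε.toRingHom, fun y => ?_, fun x => ?_⟩⟩
  · rw [← hK]
    exact ⟨fun hy => ⟨ε.symm ⟨y, hy⟩, by simp⟩, fun ⟨x, hx⟩ => hx ▸ (ε x).2⟩
  · have hx : x ^ (p ^ e * p ^ e) = x := by
      rw [← pow_add, show e + e = 2 * e by ring, ← h₀, FiniteField.pow_card]
    rw [← map_pow, hq, hef, mul_comm, pow_mul, pow_odd_eq hx hσ]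

/-- Twisted powers split off their last factor. -/
theorem tw_succ' (σ : F ≃+* F) (g : GL (Fin n) F) (i : ℕ) :
    tw σ g (i + 1) = tw σ g i * glMap (σ ^ i) g := by
  induction i with
  | zero => simp [tw]
  | succ i ih =>
    show g * glMap σ (tw σ g (i + 1)) = g * glMap σ (tw σ g i) * glMap (σ ^ (i + 1)) g
    rw [ih, map_mul, pow_succ', glMap_mul, mul_assoc]

omit [Fintype F] in
/-- Powers of a semilinear automorphism. -/
theorem exists_pow_semiAut (g : GU n F q) (σ : F ≃+* F) (i : ℕ) :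
    ∃ N : GU n F q, N.1 = tw σ g.1 i ∧ semiAut g σ ^ i = semiAut N (σ ^ i) := by
  induction i with
  | zero => exact ⟨1, rfl, by rw [pow_zero, pow_zero, semiAut_one]⟩
  | succ i ih =>
    obtain ⟨N, hN, hpow⟩ := ih
    exact ⟨g * guMap σ N, by rw [Subgroup.coe_mul, coe_guMap, hN]; rfl,
      by rw [pow_succ', hpow, semiAut_mul, pow_succ']⟩

omit [Fintype F] in
theorem coe_guScal (c : normOne F q) : (guScal c : GU n F q).1 = scal (c : Fˣ) := by
  refine Units.ext ?_
  show Matrix.diagonal _ = _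
  rw [coe_scal, smul_one_eq_diagonal]

/-- Descent inside the unitary group. -/
theorem exists_gu_descent {F₀ : Type*} [Field F₀] [Fintype F₀] {q₀ : ℕ}
    (hF : Fintype.card F = q ^ 2) (hF₀ : Fintype.card F₀ = q₀ ^ 2) {σ : F ≃+* F}
    (T : FixedEmb σ F₀ q q₀) (g : GU n F q) (hN : tw σ g.1 (orderOf σ) = 1) :
    ∃ k : GU n F q, g * guMap σ k = k := by
  classical
  have : Finite (F ≃+* F) := Finite.of_injective _ DFunLike.coe_injective
  obtain ⟨h, hh⟩ := exists_descent σ (isOfFinOrder_of_finite σ) g.1 hN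
  let v : (Fin n → F₀) → (Fin n → F) := fun u =>
    (h : Matrix (Fin n) (Fin n) F) *ᵥ fun i => T.ι (u i)
  have hv_add : ∀ u w, v (u + w) = v u + v w := fun u w => by
    simp only [v, ← mulVec_add]
    congr 1
    funext i
    exact map_add T.ι _ _
  have hv_smul : ∀ (c : F₀) u, v (c • u) = T.ι c • v u := fun c u => by
    simp only [v, ← mulVec_smul]
    congr 1
    funext i
    exact map_mul T.ι _ _
  have hfix : ∀ u, act g σ (v u) = v u := fun u => by
    show (g.1 : Matrix (Fin n) (Fin n) F) *ᵥ (fun i => σ (v u i)) = v u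
    rw [← map_mulVec_map, mulVec_mulVec, ← coe_glMap, ← Units.val_mul, hh,
      show (fun i => σ (T.ι (u i))) = fun i => T.ι (u i) from
        funext fun i => (T.mem _).2 ⟨_, rfl⟩]
  have hG : ∀ u w, ∃ c : F₀, T.ι c = hermForm n F q (v u) (v w) := fun u w =>
    (T.mem _).1 (by rw [← hermForm_act g σ, hfix, hfix])
  choose G hG' using hG
  have inj := T.ι.injective
  let B : (Fin n → F₀) →ₛₗ[conjQ hF₀] (Fin n → F₀) →ₗ[F₀] F₀ :=
    LinearMap.mk₂'ₛₗ (conjQ hF₀) (RingHom.id F₀) (fun w u => G u w)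
      (fun w w' u => inj (by simp [hG', hv_add, hermForm_add_right hF]))
      (fun c w u => inj (by simp [hG', hv_smul, hermForm_smul_right hF, T.pow_eq]))
      (fun w u u' => inj (by simp [hG', hv_add, hermForm_add_left hF]))
      (fun c w u => inj (by simp [hG', hv_smul, hermForm_smul_left hF]))
  have hherm : IsHerm B q₀ := by
    refine ⟨hF₀, fun x => rfl, fun x y => inj ?_, fun x hx => ?_⟩
    · show T.ι (G y x ^ q₀) = T.ι (G x y)
      rw [← T.pow_eq, hG', hG', hermForm_pow_q hF]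
    · have h1 : v x = 0 := by
        by_contra hne
        obtain ⟨z, hz⟩ := exists_hermForm_eq_one hF hne
        set y := ((h⁻¹ : GL (Fin n) F) : Matrix (Fin n) (Fin n) F) *ᵥ z with hy
        have hz2 : z = (h : Matrix (Fin n) (Fin n) F) *ᵥ y := by
          rw [hy, mulVec_mulVec, ← Units.val_mul, mul_inv_cancel, Units.val_one, one_mulVec]
        have hyv : z = ∑ i, y i • v (Pi.single i 1) := by
          rw [hz2]
          have e : ∀ i, v (Pi.single i 1) = (h : Matrix (Fin n) (Fin n) F) *ᵥ Pi.single i 1 := fun i => by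
            show _ *ᵥ _ = _
            congr 1
            funext j
            by_cases hj : j = i <;> simp [hj]
          simp only [e, ← mulVec_smul, ← mulVec_sum]
          congr 1
          funext j
          simp [Finset.sum_apply, Pi.single_apply]
        refine one_ne_zero (α := F) (hz.symm.trans ?_)
        rw [hyv, ← hermB_apply hF, map_sum]
        refine Finset.sum_eq_zero fun i _ => ?_
        rw [map_smul, hermB_apply, ← hG', show G (Pi.single i 1) x = 0 from hx (Pi.single i 1),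
          map_zero, smul_zero]
      funext i
      have h2 := congrArg (fun z => ((h⁻¹ : GL (Fin n) F) : Matrix (Fin n) (Fin n) F) *ᵥ z) h1
      simp only [v, mulVec_mulVec, ← Units.val_mul, inv_mul_cancel, Units.val_one, one_mulVec,
        mulVec_zero] at h2
      exact inj ((congrFun h2 i).trans (map_zero T.ι).symm)
  obtain ⟨b, hb⟩ := hherm.exists_orth_basis (n := n) (Module.finrank_fin_fun F₀)
  obtain ⟨k, hk⟩ := exists_GU_of_orth hF (fun i => v (b i)) (fun i j => by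
    have h1 := congrArg T.ι (hb i j)
    change T.ι (G (b j) (b i)) = _ at h1
    rw [hermB_apply, ← hG', h1]
    split_ifs <;> simp)
  refine ⟨k, Subtype.ext (Units.ext (Matrix.ext_of_mulVec_single fun i => ?_))⟩
  have e : (fun j => σ ((Pi.single i 1 : Fin n → F) j)) = Pi.single i 1 := funext fun j => by
    by_cases hj : j = i <;> simp [hj]
  rw [Subgroup.coe_mul, Units.val_mul, coe_guMap, coe_glMap, ← mulVec_mulVec, ← e,
    map_mulVec_map, hk, e, hk]
  exact hfix (b i)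

omit [Fintype F] in
theorem conj_semiAut (k : GU n F q) (σ : F ≃+* F) :
    semiAut k 1 * semiAut 1 σ * (semiAut k 1)⁻¹ = semiAut (k * guMap σ k⁻¹) σ := by
  rw [mul_inv_eq_iff_eq_mul, semiAut_mul, semiAut_mul, map_one, mul_one, one_mul, mul_one,
    mul_assoc, ← map_mul, inv_mul_cancel, map_one, mul_one]

theorem semiAut_guScal_mul (hF : Fintype.card F = q ^ 2) (hn : 3 ≤ n) (c : normOne F q)
    (g : GU n F q) (σ : F ≃+* F) :
    semiAut ((guScal c : GU n F q) * g) σ = semiAut g σ := by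
  rw [show semiAut ((guScal c : GU n F q) * g) σ = semiAut (guScal c : GU n F q) 1 * semiAut g σ by
    rw [semiAut_mul, guMap_one, one_mul],
    (semiAut_eq_one_iff hF hn).2 ⟨rfl, mem_center_GU_of_scalar _ (guScal_mulVec c)⟩, one_mul]

theorem unitNorm_fixed (σ : F ≃+* F) {c : Fˣ} (hc : σ c = c) : unitNorm σ c = c ^ orderOf σ := by
  show (∏ i ∈ Finset.range (orderOf σ), _) = _
  rw [Finset.prod_congr rfl fun i _ => show Units.map ((σ ^ i : F ≃+* F).toRingHom : F →* F) c = c from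
    Units.ext (Nat.rec rfl (fun i ih => by
      show (σ ^ (i + 1)) (c : F) = c
      rw [pow_succ', RingAut.mul_apply, show (σ ^ i) (c : F) = c from ih, hc]) i),
    Finset.prod_const, Finset.card_range]

/-- An element of the coset of order `r` is conjugate to the standard one. -/
theorem exists_conj_of_pow {F₀ : Type*} [Field F₀] [Fintype F₀] {q₀ : ℕ}
    (hF : Fintype.card F = q ^ 2) (hF₀ : Fintype.card F₀ = q₀ ^ 2) (hn : 3 ≤ n) {σ : F ≃+* F}
    (T : FixedEmb σ F₀ q q₀) (hσ : Odd (orderOf σ)) {g : GU n F q}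
    (h : semiAut g σ ^ orderOf σ = 1) :
    ∃ k : GU n F q, semiAut g σ = semiAut k 1 * semiAut 1 σ * (semiAut k 1)⁻¹ := by
  have : Finite (F ≃+* F) := Finite.of_injective _ DFunLike.coe_injective
  obtain ⟨N, hN, hpow⟩ := exists_pow_semiAut g σ (orderOf σ)
  rw [h, pow_orderOf_eq_one] at hpow
  obtain ⟨-, hNc⟩ := (semiAut_eq_one_iff hF hn).1 hpow.symm
  obtain ⟨l, hl⟩ := (mem_center_GU_iff hF (by omega) N).1 hNc
  have hl1 := scalar_norm_one hF (by omega) N hl
  have hl0 : l ≠ 0 := fun h => by simp [h] at hl1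
  set c : normOne F q := ⟨Units.mk0 l hl0, mem_normOne.2 hl1⟩ with hc
  have hNs : N = guScal c := GU_ext fun x => by rw [hl, guScal_mulVec]; rfl
  have hNfix : guMap σ N = N := by
    refine mul_left_cancel (a := g) (Subtype.ext ?_)
    show g.1 * glMap σ N.1 = g.1 * N.1
    rw [hN, show g.1 * glMap σ (tw σ g.1 (orderOf σ)) = tw σ g.1 (orderOf σ + 1) from rfl, tw_succ',
      pow_orderOf_eq_one, glMap_one, ← hN]
    exact congrArg Subtype.val (Subgroup.mem_center_iff.1 hNc g).symm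
  have hcfix : σ ((c : Fˣ) : F) = ((c : Fˣ) : F) := by
    have h1 := congrArg (fun M : GU n F q => (M.1 : Matrix (Fin n) (Fin n) F) ⟨0, by omega⟩ ⟨0, by omega⟩) hNfix
    simpa [hNs, guScal, guDiag] using h1
  obtain ⟨y, hy⟩ := exists_unitNorm_eq σ (isOfFinOrder_of_finite σ) (c : Fˣ) hcfix
  have hy1 : y / y ^ q ∈ normOne F q := mem_normOne.2 (by
    have hpc : ∀ x : F, x ≠ 0 → (x / x ^ q) ^ (q + 1) = 1 := fun x hx => by
      have hx2 : (x ^ q) ^ q = x := pow_q_pow_q hF x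
      rw [div_pow, pow_succ, pow_succ, hx2, mul_comm, div_self (mul_ne_zero hx (pow_ne_zero q hx))]
    simpa using hpc y y.ne_zero)
  obtain ⟨j, hj⟩ := hσ
  set lam : normOne F q := ⟨y / y ^ q, hy1⟩ ^ (j + 1) * c⁻¹ with hlam
  have hcq : (c : Fˣ) * (c : Fˣ) ^ q = 1 := by rw [← pow_succ']; exact c.2
  have hNlam : unitNorm σ (lam : Fˣ) = (c : Fˣ) := by
    show unitNorm σ ((y / y ^ q) ^ (j + 1) * (c : Fˣ)⁻¹) = _
    rw [map_mul, map_pow, map_div, map_pow, map_inv, hy, unitNorm_fixed σ hcfix, hj, div_eq_mul_inv,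
      inv_eq_of_mul_eq_one_left hcq, ← sq, ← pow_mul, show 2 * (j + 1) = 2 * j + 1 + 1 by ring,
      pow_succ', mul_inv_cancel_right]
  set g' : GU n F q := guScal lam⁻¹ * g with hg'
  obtain ⟨k, hk⟩ := exists_gu_descent hF hF₀ T g' (by
    rw [hg', Subgroup.coe_mul, coe_guScal, tw_orderOf_scal_mul, ← hN, hNs, coe_guScal, ← scal_mul,
      Subgroup.coe_inv, map_inv, hNlam, inv_mul_cancel, scal_one])
  refine ⟨k, ?_⟩
  rw [conj_semiAut, show k * guMap σ k⁻¹ = g' by
    conv_lhs => arg 1; rw [← hk]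
    rw [mul_assoc, ← map_mul, mul_inv_cancel, map_one, mul_one], hg', semiAut_guScal_mul hF hn]

/-- A twisted coboundary for norm-one units. -/
theorem exists_normOne_div {F₀ : Type*} [Field F₀] [Fintype F₀] {q₀ : ℕ}
    (hF : Fintype.card F = q ^ 2) (hF₀ : Fintype.card F₀ = q₀ ^ 2) {σ : F ≃+* F}
    (T : FixedEmb σ F₀ q q₀) (a : normOne F q) (ha : unitNorm σ (a : Fˣ) = 1) :
    ∃ b : normOne F q, ((a : Fˣ) : F) * σ ((b : Fˣ) : F) = ((b : Fˣ) : F) := by
  have htw1 : ∀ i, tw σ (1 : GL (Fin 1) F) i = 1 := fun i => by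
    induction i with
    | zero => rfl
    | succ i ih => rw [tw, ih, map_one, mul_one]
  obtain ⟨k, hk⟩ := exists_gu_descent hF hF₀ T (guScal a : GU 1 F q) (by
    rw [coe_guScal, ← mul_one (scal (a : Fˣ)), tw_orderOf_scal_mul, ha, htw1, scal_one, mul_one])
  have hd := det_GU hF k
  rw [det_fin_one] at hd
  have hb0 : (k.1 : Matrix (Fin 1) (Fin 1) F) 0 0 ≠ 0 := fun h => by simp [h] at hd
  refine ⟨⟨Units.mk0 _ hb0, mem_normOne.2 hd⟩, ?_⟩
  have h1 := congrArg (fun M : GU 1 F q => (M.1 : Matrix (Fin 1) (Fin 1) F) 0 0) hk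
  simpa [Matrix.mul_apply, coe_guScal] using h1

section Embedding

variable {F₀ : Type*} [Field F₀] [Fintype F₀] {q₀ : ℕ} {σ : F ≃+* F}

omit [Fintype F₀] in
theorem hermForm_ι (T : FixedEmb σ F₀ q q₀) (u v : Fin n → F₀) :
    hermForm n F q (fun i => T.ι (u i)) (fun i => T.ι (v i)) = T.ι (hermForm n F₀ q₀ u v) := by
  simp [hermForm, map_sum, T.pow_eq]

/-- The unitary group over the fixed field inside the big one. -/
def embGU (hF : Fintype.card F = q ^ 2) (T : FixedEmb σ F₀ q q₀) : GU n F₀ q₀ →* GU n F q :=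
  ((Matrix.GeneralLinearGroup.map T.ι).comp (GU n F₀ q₀).subtype).codRestrict _ fun g => by
    refine mem_GU_iff.2 fun u v => ?_
    show hermForm n F q ((g.1 : Matrix (Fin n) (Fin n) F₀).map T.ι *ᵥ u) _ = _
    have e : ∀ w : Fin n → F₀, (g.1 : Matrix (Fin n) (Fin n) F₀).map T.ι *ᵥ (fun i => T.ι (w i)) =
        fun i => T.ι (((g.1 : Matrix (Fin n) (Fin n) F₀) *ᵥ w) i) := fun w =>
      funext fun i => (RingHom.map_mulVec T.ι _ w i).symm
    have hs : ∀ u : Fin n → F, u = ∑ i, u i • fun j => T.ι ((Pi.single i 1 : Fin n → F₀) j) := fun u => by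
      funext j; simp [Finset.sum_apply, Pi.single_apply, apply_ite T.ι]
    rw [← hermB_apply hF, ← hermB_apply hF, hs u, hs v]
    simp only [Matrix.GeneralLinearGroup.map, Units.coe_map, mulVec_sum, mulVec_smul, map_sum,
      LinearMap.map_smulₛₗ, map_smul, LinearMap.sum_apply, LinearMap.smul_apply, hermB_apply]
    refine Finset.sum_congr rfl fun i _ => ?_
    congr 1
    refine Finset.sum_congr rfl fun j _ => ?_
    congr 1
    refine Eq.trans ?_ (hermForm_ι T _ _).symm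
    show hermForm n F q ((g.1 : Matrix (Fin n) (Fin n) F₀).map T.ι *ᵥ _)
      ((g.1 : Matrix (Fin n) (Fin n) F₀).map T.ι *ᵥ _) = _
    rw [e, e, hermForm_ι, GU_preserves]

omit [Fintype F₀] in
theorem coe_embGU (hF : Fintype.card F = q ^ 2) (T : FixedEmb σ F₀ q q₀) (g : GU n F₀ q₀) :
    ((embGU hF T g).1 : Matrix (Fin n) (Fin n) F) = (g.1 : Matrix (Fin n) (Fin n) F₀).map T.ι := rfl

omit [Fintype F₀] in
theorem guMap_embGU (hF : Fintype.card F = q ^ 2) (T : FixedEmb σ F₀ q q₀) (g : GU n F₀ q₀) :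
    guMap σ (embGU hF T g) = embGU hF T g :=
  Subtype.ext (Units.ext (Matrix.ext fun i j => (T.mem _).2 ⟨_, rfl⟩))

theorem exists_embGU_eq (hF : Fintype.card F = q ^ 2) (T : FixedEmb σ F₀ q q₀) {g : GU n F q}
    (hg : guMap σ g = g) : ∃ g₀ : GU n F₀ q₀, embGU hF T g₀ = g := by
  have hM : ∀ (h : GU n F q), guMap σ h = h → ∃ M : Matrix (Fin n) (Fin n) F₀,
      M.map T.ι = (h.1 : Matrix (Fin n) (Fin n) F) := fun h hh => by
    have : ∀ i j, ∃ x, T.ι x = (h.1 : Matrix (Fin n) (Fin n) F) i j := fun i j =>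
      (T.mem _).1 (congrArg (fun M : GU n F q => (M.1 : Matrix (Fin n) (Fin n) F) i j) hh)
    choose M hM using this
    exact ⟨M, Matrix.ext hM⟩
  obtain ⟨M, hM1⟩ := hM g hg
  obtain ⟨M', hM2⟩ := hM g⁻¹ (by rw [map_inv, hg])
  have hinj : Function.Injective fun A : Matrix (Fin n) (Fin n) F₀ => A.map T.ι :=
    Matrix.map_injective T.ι.injective
  have h1 : M * M' = 1 := hinj (by
    show (M * M').map T.ι = (1 : Matrix (Fin n) (Fin n) F₀).map T.ι
    rw [Matrix.map_mul, hM1, hM2, Matrix.map_one _ (map_zero _) (map_one _), ← Units.val_mul,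
      ← Subgroup.coe_mul, mul_inv_cancel]
    rfl)
  refine ⟨⟨⟨M, M', h1, mul_eq_one_comm.1 h1⟩, mem_GU_iff.2 fun u v => T.ι.injective ?_⟩,
    Subtype.ext (Units.ext hM1)⟩
  have e : ∀ w, (g.1 : Matrix (Fin n) (Fin n) F) *ᵥ (fun i => T.ι (w i)) =
      fun i => T.ι ((M *ᵥ w) i) := fun w => by
    rw [← hM1]; exact funext fun i => (RingHom.map_mulVec T.ι _ w i).symm
  rw [← hermForm_ι T, ← hermForm_ι T]
  show hermForm n F q (fun i => T.ι ((M *ᵥ u) i)) (fun i => T.ι ((M *ᵥ v) i)) = _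
  rw [← e, ← e, GU_preserves]

/-- The inner-diagonal centraliser of a standard field automorphism, as a homomorphic image. -/
def centHom (hF : Fintype.card F = q ^ 2) (T : FixedEmb σ F₀ q q₀) :
    GU n F₀ q₀ →* MulAut (Cfsg.PSU n F q) :=
  diagHom.comp (embGU hF T)

theorem range_centHom (hF : Fintype.card F = q ^ 2) (hF₀ : Fintype.card F₀ = q₀ ^ 2) (hn : 3 ≤ n)
    (T : FixedEmb σ F₀ q q₀) :
    (centHom hF T).range = Cfsg.inndiagPSU n F q ⊓ Subgroup.centralizer {semiAut 1 σ} := by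
  refine le_antisymm ?_ ?_
  · rintro _ ⟨g, rfl⟩
    refine ⟨mem_inndiag_iff.2 ⟨_, rfl⟩, ?_⟩
    refine Subgroup.mem_centralizer_singleton_iff.2 ?_
    show semiAut (embGU hF T g) 1 * semiAut 1 σ = semiAut 1 σ * semiAut (embGU hF T g) 1
    rw [semiAut_mul, semiAut_mul, guMap_embGU, guMap_one, mul_one, one_mul, one_mul, mul_one]
  · rintro α ⟨hα, hc⟩
    obtain ⟨g, rfl⟩ := mem_inndiag_iff.1 hα
    replace hc := Subgroup.mem_centralizer_singleton_iff.1 hc
    rw [semiAut_mul, semiAut_mul, guMap_one, mul_one, one_mul, one_mul, mul_one] at hc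
    have h1 : semiAut (guMap σ g * g⁻¹) 1 = (1 : MulAut (Cfsg.PSU n F q)) := by
      have h2 := congrArg (· * (semiAut g σ)⁻¹) hc.symm
      simp only [mul_inv_cancel] at h2
      rw [← h2, eq_mul_inv_iff_mul_eq, semiAut_mul, guMap_one, inv_mul_cancel_right, one_mul]
    obtain ⟨l, hl⟩ := (mem_center_GU_iff hF (by omega) _).1 ((semiAut_eq_one_iff hF hn).1 h1).2
    have hl1 := scalar_norm_one hF (by omega) _ hl
    have hl0 : l ≠ 0 := fun h => by simp [h] at hl1
    set a : normOne F q := ⟨Units.mk0 l hl0, mem_normOne.2 hl1⟩ with ha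
    have hga : guMap σ g = guScal a * g := by
      rw [← mul_inv_eq_iff_eq_mul]
      exact GU_ext fun x => by rw [hl, guScal_mulVec]; rfl
    have hpow : ∀ i, (glMap (σ ^ i) g.1 : GL (Fin n) F) =
        scal (∏ j ∈ Finset.range i, Units.map ((σ ^ j : F ≃+* F).toRingHom : F →* F) (a : Fˣ)) * g.1 := by
      intro i
      induction i with
      | zero => simp [scal_one]
      | succ i ih =>
        rw [pow_succ, glMap_mul, show glMap σ g.1 = scal (a : Fˣ) * g.1 by
          rw [← coe_guScal, ← Subgroup.coe_mul, ← hga]; rfl, map_mul, glMap_scal, ih,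
          Finset.prod_range_succ, scal_mul, ← mul_assoc, ← scal_mul, mul_comm, scal_mul]
    have hNa : unitNorm σ (a : Fˣ) = 1 := by
      have h2 := hpow (orderOf σ)
      rw [pow_orderOf_eq_one, glMap_one, eq_comm, mul_eq_right] at h2
      have h3 := congrArg (fun M : GL (Fin n) F => (M : Matrix (Fin n) (Fin n) F) ⟨0, by omega⟩ ⟨0, by omega⟩) h2
      simp only [coe_scal, Units.val_one, Matrix.smul_apply, one_apply_eq, smul_eq_mul, mul_one] at h3
      exact Units.ext h3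
    obtain ⟨b, hb⟩ := exists_normOne_div hF hF₀ T a hNa
    obtain ⟨g₀, hg₀⟩ := exists_embGU_eq hF T (g := guScal b * g) (by
      rw [map_mul, hga, ← mul_assoc]
      congr 1
      refine Subtype.ext ?_
      rw [Subgroup.coe_mul, coe_guMap, coe_guScal, coe_guScal, glMap_scal, ← scal_mul]
      congr 1
      refine Units.ext ?_
      show σ ((b : Fˣ) : F) * ((a : Fˣ) : F) = _
      rw [mul_comm, hb])
    refine ⟨g₀, ?_⟩
    show semiAut (embGU hF T g₀) 1 = _
    rw [hg₀, semiAut_guScal_mul hF hn]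

theorem ker_centHom (hF : Fintype.card F = q ^ 2) (hn : 3 ≤ n) (T : FixedEmb σ F₀ q q₀) :
    (centHom hF T : GU n F₀ q₀ →* _).ker =
      (Cfsg.Geo.scalars (Fin n) F₀).subgroupOf (GU n F₀ q₀) := by
  ext g
  rw [MonoidHom.mem_ker, Subgroup.mem_subgroupOf, Cfsg.Geo.mem_scalars_iff]
  show semiAut (embGU hF T g) 1 = 1 ↔ _
  rw [semiAut_eq_one_iff hF hn, and_iff_right rfl, mem_center_GU_iff hF (by omega)]
  constructor
  · rintro ⟨l, hl⟩
    have h1 := eq_diagonal_of_scalar _ hl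
    rw [coe_embGU] at h1
    set o : Fin n := ⟨0, by omega⟩
    have h2 : ∀ i j, T.ι ((g.1 : Matrix (Fin n) (Fin n) F₀) i j) = if i = j then l else 0 := fun i j => by
      have := congrFun (congrFun h1 i) j
      simpa [diagonal_apply] using this
    set x := (g.1 : Matrix (Fin n) (Fin n) F₀) o o
    have hx : T.ι x = l := by simpa using h2 o o
    have hg : (g.1 : Matrix (Fin n) (Fin n) F₀) = x • 1 := Matrix.ext fun i j => T.ι.injective (by
      rw [h2]; by_cases hij : i = j <;> simp [hij, hx])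
    have hx0 : x ≠ 0 := fun h0 => by
      have hd := ((Matrix.isUnit_iff_isUnit_det _).1 g.1.isUnit).ne_zero
      have : Nonempty (Fin n) := ⟨o⟩
      rw [hg, h0, zero_smul, det_zero] at hd
      exact hd rfl
    exact ⟨Units.mk0 x hx0, hg⟩
  · rintro ⟨c, hc⟩
    refine ⟨T.ι c, fun x => ?_⟩
    rw [coe_embGU, hc, show ((c : F₀) • (1 : Matrix (Fin n) (Fin n) F₀)).map T.ι = T.ι c • 1 from
      Matrix.ext fun i j => by by_cases hij : i = j <;> simp [hij], smul_mulVec, one_mulVec]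

end Embedding

section Count

/-- Splitting of a class as an index. -/
theorem splitClassCount_eq {X : Type*} [Group X] (G T : Subgroup X) [T.Normal] (hTG : T ≤ G) (x : X) :
    Cfsg.splitClassCount G T x = ((T ⊔ (G ⊓ Subgroup.centralizer {x})).subgroupOf G).index := by
  classical
  set C := G ⊓ Subgroup.centralizer {x} with hC
  set S := T ⊔ C with hS
  let rel := fun y z : {y : X // Cfsg.IsConjUnder G x y} => Cfsg.IsConjUnder T y.1 z.1
  let Ψ : G → Quot rel := fun g => Quot.mk _ ⟨g * x * (g : X)⁻¹, g, g.2, rfl⟩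
  have hmem : ∀ z : X, z ∈ S ↔ ∃ t ∈ T, ∃ c ∈ C, t * c = z := fun z =>
    Subgroup.mem_sup_of_normal_left
  have hrel : Equivalence rel := by
    refine ⟨fun y => ⟨1, T.one_mem, by simp⟩, ?_, ?_⟩
    · rintro y z ⟨t, ht, h⟩
      exact ⟨t⁻¹, T.inv_mem ht, by rw [h]; group⟩
    · rintro y z w ⟨t, ht, h⟩ ⟨s, hs, h'⟩
      exact ⟨s * t, T.mul_mem hs ht, by rw [h', h]; group⟩
  let Φ : G ⧸ S.subgroupOf G → Quot rel := Quotient.lift Ψ (by
    intro g g' hgg
    have h1 : ((g : X))⁻¹ * g' ∈ S := (QuotientGroup.leftRel_apply (s := S.subgroupOf G)).1 hgg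
    obtain ⟨t, ht, c, hc, htc⟩ := (hmem _).1 h1
    refine Quot.sound ⟨g * t * (g : X)⁻¹, Subgroup.Normal.conj_mem inferInstance t ht _, ?_⟩
    have hcx : c * x * c⁻¹ = x := by
      rw [mul_inv_eq_iff_eq_mul]
      exact Subgroup.mem_centralizer_singleton_iff.1 hc.2
    show (g' : X) * x * (g' : X)⁻¹ = g * t * (g : X)⁻¹ * (g * x * (g : X)⁻¹) * (g * t * (g : X)⁻¹)⁻¹
    rw [show (g' : X) = g * (t * c) by rw [htc, mul_inv_cancel_left]]
    calc (g : X) * (t * c) * x * (g * (t * c))⁻¹ = g * t * (c * x * c⁻¹) * t⁻¹ * (g : X)⁻¹ := by group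
      _ = _ := by rw [hcx]; group)
  show Nat.card (Quot rel) = _
  rw [Subgroup.index_eq_card]
  symm
  refine Nat.card_congr (Equiv.ofBijective Φ ⟨?_, ?_⟩)
  · rintro ⟨g⟩ ⟨g'⟩ h
    obtain ⟨t, ht, htx⟩ := hrel.eqvGen_iff.1 (Quot.eqvGen_exact h)
    refine Quotient.sound ((QuotientGroup.leftRel_apply (s := S.subgroupOf G)).2 ((hmem _).2 ?_))
    change (g' : X) * x * (g' : X)⁻¹ = t * (g * x * (g : X)⁻¹) * t⁻¹ at htx
    refine ⟨(g : X)⁻¹ * t * g, by simpa using Subgroup.Normal.conj_mem inferInstance t ht (g : X)⁻¹,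
      (g : X)⁻¹ * t⁻¹ * g', ⟨G.mul_mem (G.mul_mem (G.inv_mem g.2) (G.inv_mem (hTG ht))) g'.2, ?_⟩, ?_⟩
    · refine Subgroup.mem_centralizer_singleton_iff.2 ?_
      calc (g : X)⁻¹ * t⁻¹ * g' * x = (g : X)⁻¹ * t⁻¹ * (g' * x * (g' : X)⁻¹) * g' := by group
        _ = _ := by rw [htx]; group
    · show _ = (g : X)⁻¹ * g'
      group
  · rintro ⟨y, g, hg, hy⟩
    exact ⟨QuotientGroup.mk ⟨g, hg⟩, congrArg (Quot.mk rel) (Subtype.ext hy.symm)⟩

theorem isConjUnder_congr {X : Type*} [Group X] {G : Subgroup X} {h x y : X} (hh : h ∈ G) :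
    Cfsg.IsConjUnder G (h * x * h⁻¹) y ↔ Cfsg.IsConjUnder G x y := by
  constructor
  · rintro ⟨g, hg, rfl⟩
    exact ⟨g * h, G.mul_mem hg hh, by group⟩
  · rintro ⟨g, hg, rfl⟩
    exact ⟨g * h⁻¹, G.mul_mem hg (G.inv_mem hh), by group⟩

theorem splitClassCount_congr {X : Type*} [Group X] {G : Subgroup X} (T : Subgroup X) {h x : X}
    (hh : h ∈ G) : Cfsg.splitClassCount G T (h * x * h⁻¹) = Cfsg.splitClassCount G T x := by
  have hP : Cfsg.IsConjUnder G (h * x * h⁻¹) = Cfsg.IsConjUnder G x :=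
    funext fun y => propext (isConjUnder_congr hh)
  unfold Cfsg.splitClassCount
  rw [hP]

/-- In a finite cyclic group the ranges of two power maps span the range of their gcd. -/
theorem range_pow_sup {A : Type*} [CommGroup A] (a b : ℕ) :
    (powMonoidHom a : A →* A).range ⊔ (powMonoidHom b).range = (powMonoidHom (Nat.gcd a b)).range := by
  refine le_antisymm (sup_le ?_ ?_) ?_
  · rintro _ ⟨x, rfl⟩
    obtain ⟨c, hc⟩ := Nat.gcd_dvd_left a b
    refine ⟨x ^ c, ?_⟩
    rw [powMonoidHom_apply, powMonoidHom_apply, ← pow_mul, mul_comm, ← hc]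
  · rintro _ ⟨x, rfl⟩
    obtain ⟨c, hc⟩ := Nat.gcd_dvd_right a b
    refine ⟨x ^ c, ?_⟩
    rw [powMonoidHom_apply, powMonoidHom_apply, ← pow_mul, mul_comm, ← hc]
  · rintro _ ⟨x, rfl⟩
    rw [powMonoidHom_apply, ← zpow_natCast, Nat.gcd_eq_gcd_ab, _root_.zpow_add, _root_.zpow_mul, _root_.zpow_mul,
      zpow_natCast, zpow_natCast]
    exact mul_mem (Subgroup.zpow_mem _ (Subgroup.mem_sup_left (MonoidHom.mem_range.2 ⟨x, rfl⟩)) _)
      (Subgroup.zpow_mem _ (Subgroup.mem_sup_right (MonoidHom.mem_range.2 ⟨x, rfl⟩)) _)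

end Count

/-- The number of inner classes in the inner-diagonal class of a standard field automorphism. -/
theorem splitClassCount_std {F₀ : Type*} [Field F₀] [Fintype F₀] {q₀ : ℕ}
    (hF : Fintype.card F = q ^ 2) (hF₀ : Fintype.card F₀ = q₀ ^ 2) (hn : 3 ≤ n) {σ : F ≃+* F}
    (T : FixedEmb σ F₀ q q₀) {r : ℕ} (hr : Odd r) (hqr : q = q₀ ^ r) :
    Cfsg.splitClassCount (Cfsg.inndiagPSU n F q) (Cfsg.Inn (Cfsg.PSU n F q)) (semiAut 1 σ) =
      Nat.gcd n ((q + 1) / (q₀ + 1)) := by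
  classical
  rw [splitClassCount_eq _ _ inn_le_inndiag, ← range_centHom hF hF₀ hn T]
  obtain ⟨M, hM⟩ : q₀ + 1 ∣ q + 1 := by
    rw [hqr]
    simpa using hr.nat_add_dvd_pow_add_pow q₀ 1
  set M' := (q + 1) / (q₀ + 1) with hM'
  have hMM : M' = M := by rw [hM', hM, Nat.mul_div_cancel_left _ (by omega)]
  rw [hMM]
  let P : Subgroup (normOne F q) := (powMonoidHom n).range ⊔ (powMonoidHom M).range
  set S := (Cfsg.Inn (Cfsg.PSU n F q) ⊔ (centHom hF T).range) with hS
  let d : GU n F q →* Cfsg.inndiagPSU n F q :=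
    diagHom.codRestrict _ fun g => mem_inndiag_iff.2 ⟨g, rfl⟩
  have hd : Function.Surjective d := fun α => by
    obtain ⟨g, hg⟩ := mem_inndiag_iff.1 α.2
    exact ⟨g, Subtype.ext hg.symm⟩
  rw [← Subgroup.index_comap_of_surjective _ hd]
  -- fixed norm-one units are the `M`-th powers
  obtain ⟨γ, hγ⟩ := IsCyclic.exists_generator (α := normOne F q)
  have hγo : orderOf γ = q + 1 := by
    rw [orderOf_eq_card_of_forall_mem_zpowers hγ, card_norm_one_units hF]
  have hdet0 : ∀ g₀ : GU n F₀ q₀, detU hF (embGU hF T g₀) ∈ (powMonoidHom M : normOne F q →* _).range := by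
    intro g₀
    have hpow : detU hF (embGU hF T g₀) ^ (q₀ + 1) = 1 := by
      refine Subtype.ext (Units.ext ?_)
      show ((detU hF (embGU hF T g₀) : Fˣ) : F) ^ (q₀ + 1) = 1
      rw [coe_detU, coe_embGU, ← RingHom.mapMatrix_apply, ← RingHom.map_det, ← map_pow, det_GU hF₀,
        map_one]
    obtain ⟨j, hj⟩ := hγ (detU hF (embGU hF T g₀))
    simp only at hj
    rw [← hj, ← zpow_natCast, ← _root_.zpow_mul, ← orderOf_dvd_iff_zpow_eq_one, hγo, hM] at hpow
    push_cast at hpow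
    rw [mul_comm j] at hpow
    obtain ⟨i, rfl⟩ := (mul_dvd_mul_iff_left (show ((q₀ : ℤ) + 1) ≠ 0 by omega)).1 hpow
    exact ⟨γ ^ i, by rw [← hj, powMonoidHom_apply, ← zpow_natCast, ← _root_.zpow_mul, mul_comm i]⟩
  have hfixM : ∀ u : normOne F q, ∃ g₀ : GU n F₀ q₀, detU hF (embGU hF T g₀) = u ^ M := by
    intro u
    set w : F := ((u : Fˣ) : F) ^ M with hw
    have hwn : w ^ (q₀ + 1) = 1 := by
      rw [hw, ← pow_mul, mul_comm, ← hM]
      exact mem_normOne.1 u.2
    have hwq : w ^ (q₀ * q₀) = w := by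
      have h0 : w ≠ 0 := fun h => by simp [h] at hwn
      have h1 : w ^ q₀ = w⁻¹ := eq_inv_of_mul_eq_one_left (by rw [← pow_succ, hwn])
      rw [pow_mul, h1, inv_pow, h1, inv_inv]
    obtain ⟨x, hx⟩ : ∃ x : F₀, T.ι x = w := by
      -- all roots of `X ^ (q₀ * q₀) - X` lie in the image
      by_contra hne
      let Z : Polynomial F := Polynomial.X ^ (q₀ * q₀) - Polynomial.X
      have hq₀ : 1 < q₀ * q₀ := by have := two_le_q hF₀; nlinarith
      have hsub : insert w (Finset.univ.image T.ι) ⊆ Z.roots.toFinset := by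
        intro y hy
        rw [Multiset.mem_toFinset, Polynomial.mem_roots (FiniteField.X_pow_card_sub_X_ne_zero F hq₀)]
        simp only [Z, Polynomial.IsRoot.def, Polynomial.eval_sub, Polynomial.eval_pow, Polynomial.eval_X]
        rw [sub_eq_zero]
        rcases Finset.mem_insert.1 hy with rfl | hy
        · exact hwq
        · obtain ⟨x, -, rfl⟩ := Finset.mem_image.1 hy
          rw [← map_pow, show q₀ * q₀ = Fintype.card F₀ by rw [hF₀, sq], FiniteField.pow_card]
      have h1 := (Finset.card_le_card hsub).trans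
        ((Multiset.toFinset_card_le _).trans (Polynomial.card_roots' Z))
      rw [Finset.card_insert_of_notMem (by simpa using hne),
        Finset.card_image_of_injective _ T.ι.injective, Finset.card_univ, hF₀,
        FiniteField.X_pow_card_sub_X_natDegree_eq F hq₀, sq] at h1
      omega
    have hx1 : x ^ (q₀ + 1) = 1 := T.ι.injective (by rw [map_pow, hx, hwn, map_one])
    refine ⟨guDiag (Function.update (1 : Fin n → F₀) ⟨0, by omega⟩ x) (fun i => ?_),
      Subtype.ext (Units.ext ?_)⟩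
    · by_cases h : i = ⟨0, by omega⟩ <;> simp [h, hx1]
    · rw [coe_detU, coe_embGU, ← RingHom.mapMatrix_apply, ← RingHom.map_det]
      show T.ι (Matrix.diagonal _).det = _
      rw [det_diagonal, Finset.prod_update_of_mem (Finset.mem_univ _)]
      simp [hx, hw]
  have hcomap : (S.subgroupOf (Cfsg.inndiagPSU n F q)).comap d = P.comap (detU hF) := by
    ext g
    simp only [Subgroup.mem_comap, Subgroup.mem_subgroupOf]
    show semiAut g 1 ∈ S ↔ detU hF g ∈ P
    constructor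
    · intro h
      rw [hS, Subgroup.mem_sup_of_normal_left] at h
      obtain ⟨t, ⟨x, hx⟩, _, ⟨g₀, rfl⟩, h⟩ := h
      obtain ⟨s, rfl⟩ := QuotientGroup.mk'_surjective _ x
      have h1 : semiAut (g * (embGU hF T g₀)⁻¹) 1 ∈ Cfsg.Inn (Cfsg.PSU n F q) := by
        refine ⟨mk' s, ?_⟩
        rw [← diagHom_apply, map_mul, map_inv, eq_mul_inv_iff_mul_eq, hx]
        exact h
      rw [semiAut_mem_inn_iff hF hn, map_mul, map_inv] at h1
      rw [show detU hF g = detU hF g * (detU hF (embGU hF T g₀))⁻¹ * detU hF (embGU hF T g₀) from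
        (inv_mul_cancel_right _ _).symm]
      exact P.mul_mem (Subgroup.mem_sup_left h1) (Subgroup.mem_sup_right (hdet0 g₀))
    · intro h
      rw [Subgroup.mem_sup_of_normal_left] at h
      obtain ⟨a, ha, _, ⟨u, rfl⟩, h⟩ := h
      obtain ⟨g₀, hg₀⟩ := hfixM u
      have h1 : semiAut (g * (embGU hF T g₀)⁻¹) 1 ∈ Cfsg.Inn (Cfsg.PSU n F q) := by
        rw [semiAut_mem_inn_iff hF hn, map_mul, map_inv, hg₀, ← h, powMonoidHom_apply,
          mul_inv_cancel_right]
        exact ha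
      rw [hS, show semiAut g 1 = semiAut (g * (embGU hF T g₀)⁻¹) 1 * semiAut (embGU hF T g₀) 1 by
        rw [semiAut_mul, guMap_one, inv_mul_cancel_right, one_mul]]
      exact mul_mem (Subgroup.mem_sup_left h1) (Subgroup.mem_sup_right ⟨g₀, rfl⟩)
  rw [hcomap, Subgroup.index_comap_of_surjective _ (detU_surjective hF (by omega)),
    show P = (powMonoidHom (Nat.gcd n M)).range from range_pow_sup n M,
    IsCyclic.index_powMonoidHom_range, card_norm_one_units hF]
  exact Nat.gcd_eq_right ((Nat.gcd_dvd_right n M).trans ⟨q₀ + 1, by rw [hM, mul_comm]⟩)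

/-- A field automorphism is inner-diagonally conjugate to a standard one of the same order. -/
theorem exists_std_of_fieldClass (hF : Fintype.card F = q ^ 2) (hn : 3 ≤ n) (hs : ¬(n = 3 ∧ q = 2))
    {x : MulAut (Cfsg.PSU n F q)} (hx : Cfsg.IsFieldAutClassPSU x) :
    ∃ (σ : F ≃+* F) (h : GU n F q), Odd (orderOf σ) ∧ σ ≠ 1 ∧
      x = semiAut h 1 * semiAut 1 σ * (semiAut h 1)⁻¹ ∧ orderOf x = orderOf σ := by
  obtain ⟨α, φ, σ, hσ1, hσ, hφ, hαx⟩ := hx
  rw [isFieldAut_iff] at hφ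
  subst hφ
  obtain ⟨g, τ, hg⟩ := exists_semilinear hF hn hs α⁻¹
  have hcomm : τ * σ = σ * τ := by
    have : IsCyclic (F ≃+* F) := by
      obtain ⟨p, e, hp, -, he, rfl⟩ := exists_q_eq_pow hF
      have := Fact.mk hp
      exact (ringAut_cyclic (p := p) (N := 2 * e) (by omega) (hF.trans (card_eq_pow rfl))).1
    exact (IsCyclic.isMulCommutative (α := F ≃+* F)).is_comm.comm τ σ
  have hx' : x = semiAut g 1 * semiAut 1 σ * (semiAut g 1)⁻¹ := by
    have h1 : x = α⁻¹ * semiAut 1 σ * α := by rw [← hαx]; group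
    rw [h1, eq_mul_inv_iff_mul_eq, show α = (semiAut g τ)⁻¹ by rw [← hg, inv_inv], inv_inv,
      show semiAut g τ = semiAut g 1 * semiAut 1 τ by rw [semiAut_mul, map_one, mul_one, one_mul]]
    have h2 : semiAut 1 τ * semiAut 1 σ = (semiAut 1 σ * semiAut 1 τ : MulAut (Cfsg.PSU n F q)) := by
      rw [semiAut_mul, semiAut_mul, map_one, map_one, hcomm]
    calc semiAut g 1 * semiAut 1 τ * semiAut 1 σ * (semiAut g 1 * semiAut 1 τ)⁻¹ * semiAut g 1
        = semiAut g 1 * (semiAut 1 τ * semiAut 1 σ) * (semiAut 1 τ)⁻¹ := by group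
      _ = semiAut g 1 * semiAut 1 σ := by rw [h2]; group
  refine ⟨σ, g, hσ, hσ1, hx', ?_⟩
  rw [hx', ← MulAut.conj_apply, MulEquiv.orderOf_eq]
  exact orderOf_injective (MonoidHom.mk' (fun σ : F ≃+* F => semiAut (1 : GU n F q) σ)
    fun a b => by rw [semiAut_mul, map_one, mul_one]) (fun a b h => sigma_eq_of_semiAut_eq hF hn h) σ

/-- Order `r` in the coset means inner-diagonal conjugacy. -/
theorem coset_conj {p f : ℕ} [Fact p.Prime] (hq : q = p ^ f) (hF : Fintype.card F = q ^ 2)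
    (hn : 3 ≤ n) (hs : ¬(n = 3 ∧ q = 2)) {x δ : MulAut (Cfsg.PSU n F q)}
    (hx : Cfsg.IsFieldAutClassPSU x) {r : ℕ} (hxr : orderOf x = r)
    (hδ : δ ∈ Cfsg.inndiagPSU n F q) :
    orderOf (δ * x) = r ↔ Cfsg.IsConjUnder (Cfsg.inndiagPSU n F q) x (δ * x) := by
  classical
  constructor
  · intro hord
    obtain ⟨σ, h, hσ, -, rfl, hox⟩ := exists_std_of_fieldClass hF hn hs hx
    obtain ⟨d, rfl⟩ := mem_inndiag_iff.1 hδ
    set y := semiAut d 1 * (semiAut h 1 * semiAut 1 σ * (semiAut h 1)⁻¹) with hy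
    have hy2 : y = semiAut (d * (h * guMap σ h⁻¹)) σ := by
      rw [hy, conj_semiAut, semiAut_mul, guMap_one, one_mul]
    have hpow : semiAut (d * (h * guMap σ h⁻¹)) σ ^ orderOf σ = 1 := by
      rw [← hy2, ← hox, hxr, ← hord]; exact pow_orderOf_eq_one _
    obtain ⟨hdvd, hemb⟩ := exists_fixedEmb hq hF σ hσ
    obtain ⟨K, hK, hcard⟩ := exists_fixedField σ
    have hr0 : orderOf σ ≠ 0 := fun h0 => by simp [h0] at hσ
    have hKc : Fintype.card K = p ^ (2 * (f / orderOf σ)) := by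
      obtain ⟨e, he⟩ := hdvd
      rw [Nat.card_eq_fintype_card, Nat.card_eq_fintype_card, hF, card_eq_pow hq, he] at hcard
      rw [he, Nat.mul_div_cancel_left _ (Nat.pos_of_ne_zero hr0)]
      refine Nat.pow_left_injective hr0 ?_
      show Fintype.card K ^ orderOf σ = (p ^ (2 * e)) ^ orderOf σ
      rw [← hcard, ← pow_mul]
      ring
    obtain ⟨T⟩ := hemb K hKc
    obtain ⟨k, hk⟩ := exists_conj_of_pow hF (hKc.trans (card_eq_pow rfl).symm) hn T hσ hpow
    refine ⟨semiAut k 1 * (semiAut h 1)⁻¹, mul_mem (mem_inndiag_iff.2 ⟨k, rfl⟩)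
      (inv_mem (mem_inndiag_iff.2 ⟨h, rfl⟩)), ?_⟩
    rw [hy2, hk]
    group
  · rintro ⟨h, -, hh⟩
    rw [hh, ← MulAut.conj_apply, MulEquiv.orderOf_eq, hxr]

/-- Centraliser and splitting for field automorphisms of odd prime order. -/
theorem centralizer_split {p f : ℕ} [Fact p.Prime] (hq : q = p ^ f)
    (hF : Fintype.card F = q ^ 2) (hn : 3 ≤ n) (hs : ¬(n = 3 ∧ q = 2))
    (x : MulAut (Cfsg.PSU n F q)) (hx : Cfsg.IsFieldAutClassPSU x) {r : ℕ}
    (hro : Odd r) (hxr : orderOf x = r) (F₀ : Type*) [Field F₀] [Fintype F₀]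
    (hF₀ : Fintype.card F₀ = p ^ (2 * (f / r))) :
    r ∣ f ∧ Nonempty (↥(Cfsg.inndiagPSU n F q ⊓ Subgroup.centralizer {x}) ≃*
        Cfsg.PGU n F₀ (p ^ (f / r))) ∧
      Cfsg.splitClassCount (Cfsg.inndiagPSU n F q) (Cfsg.Inn (Cfsg.PSU n F q)) x =
        Nat.gcd n ((q + 1) / (p ^ (f / r) + 1)) := by
  obtain ⟨σ, h, hσ, -, hxe, hox⟩ := exists_std_of_fieldClass hF hn hs hx
  subst hxe
  obtain rfl : r = orderOf σ := hxr.symm.trans hox
  obtain ⟨hdvd, hemb⟩ := exists_fixedEmb hq hF σ hσ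
  obtain ⟨T⟩ := hemb F₀ hF₀
  have hF₀' : Fintype.card F₀ = (p ^ (f / orderOf σ)) ^ 2 := hF₀.trans (card_eq_pow rfl).symm
  have hh : semiAut h 1 ∈ Cfsg.inndiagPSU n F q := mem_inndiag_iff.2 ⟨h, rfl⟩
  refine ⟨hdvd, ⟨?_⟩, ?_⟩
  · let c := MulAut.conj (semiAut h 1 : MulAut (Cfsg.PSU n F q))
    have himg : ((centHom hF T).range).map c.toMonoidHom =
        Cfsg.inndiagPSU n F q ⊓ Subgroup.centralizer {semiAut h 1 * semiAut 1 σ * (semiAut h 1)⁻¹} := by
      rw [range_centHom hF hF₀' hn T]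
      ext y
      rw [Subgroup.mem_map_equiv, Subgroup.mem_inf, Subgroup.mem_inf,
        Subgroup.mem_centralizer_singleton_iff, Subgroup.mem_centralizer_singleton_iff,
        show c.symm y = (semiAut h 1)⁻¹ * y * semiAut h 1 from MulAut.conj_symm_apply _ _]
      refine and_congr ⟨fun hy => ?_, fun hy => mul_mem (mul_mem (inv_mem hh) hy) hh⟩ ?_
      · have := mul_mem (mul_mem hh hy) (inv_mem hh)
        simpa [mul_assoc] using this
      · constructor <;> intro e
        · calc y * (semiAut h 1 * semiAut 1 σ * (semiAut h 1)⁻¹)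
              = semiAut h 1 * ((semiAut h 1)⁻¹ * y * semiAut h 1 * semiAut 1 σ) * (semiAut h 1)⁻¹ := by group
            _ = _ := by rw [e]; group
        · calc (semiAut h 1)⁻¹ * y * semiAut h 1 * semiAut 1 σ
              = (semiAut h 1)⁻¹ * (y * (semiAut h 1 * semiAut 1 σ * (semiAut h 1)⁻¹)) * semiAut h 1 := by group
            _ = _ := by rw [e]; group
    exact (((QuotientGroup.quotientMulEquivOfEq (ker_centHom hF hn T).symm).trans
      (QuotientGroup.quotientKerEquivRange (centHom hF T))).trans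
      ((c.subgroupMap _).trans (MulEquiv.subgroupCongr himg))).symm
  · rw [splitClassCount_congr _ hh]
    refine splitClassCount_std hF hF₀' hn T hσ ?_
    rw [hq, ← pow_mul, Nat.div_mul_cancel hdvd]

end Cfsg.Agent.H23.AutPSU
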